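import Mathlib
import Cfsg.Agent.CharBasics.Ortho
import Cfsg.Agent.CharBasics.Central

/-!
Character criteria for products of conjugacy classes.
-/

set_option autoImplicit false
set_option linter.style.haveILetI false

namespace CfsgLib.BrauerInd

open scoped ComplexConjugate

universe u

variable {G : Type u} [Group G] [Finite G]

/-- Elements on which all irreducible characters agree are conjugate. -/
theorem isConj_of_forall_eq {g h : G}
    (he : ∀ χ : Cfsg.IrrCharacter G, (χ : G → ℂ) h = (χ : G → ℂ) g) : IsConj g h := by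
  classical
  haveI := Fintype.ofFinite G
  haveI := Fintype.ofFinite (Cfsg.IrrCharacter G)
  by_contra hn
  have hcol := CharBasics.sum_col g h
  simp only [he, if_neg hn, Complex.mul_conj'] at hcol
  have h0 : ((∑ χ : Cfsg.IrrCharacter G, ‖(χ : G → ℂ) g‖ ^ 2 : ℝ) : ℂ) = 0 := by
    rw [← hcol]; push_cast; rfl
  rw [CharBasics.sum_normSq_col g] at h0
  have hpos : 0 < Nat.card (Subgroup.centralizer ({g} : Set G)) := Nat.card_pos
  norm_cast at h0
  omega

/-- If an irreducible character is constant on the products of two classes, it is multiplicative there. -/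
theorem mul_apply_of_const [Fintype G] {χ : G → ℂ} (h : Cfsg.IsIrrCharacter G χ) (x y : G) (c : ℂ)
    (hc : ∀ a : G, χ (a * x * a⁻¹ * y) = c) : χ 1 * c = χ x * χ y := by
  have hs := CharBasics.sum_conj_apply_mul h x y
  rw [Finset.sum_congr rfl (fun a _ => hc a), Finset.sum_const, Finset.card_univ,
    ← Nat.card_eq_fintype_card, nsmul_eq_mul] at hs
  have hG : (Nat.card G : ℂ) ≠ 0 := Nat.cast_ne_zero.mpr Nat.card_pos.ne'
  exact mul_left_cancel₀ hG (by linear_combination hs)

/-- The class of a product is the product of the classes, given the character identity. -/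
theorem isConj_mul_iff (x y : G)
    (h : ∀ (a b : G) (χ : Cfsg.IrrCharacter G), (χ : G → ℂ) (a * x * a⁻¹ * (b * y * b⁻¹)) =
      (χ : G → ℂ) (x * y)) (z : G) :
    IsConj (x * y) z ↔ ∃ a b : G, z = a * x * a⁻¹ * (b * y * b⁻¹) := by
  constructor
  · intro hz
    obtain ⟨c, hc⟩ := isConj_iff.1 hz
    exact ⟨c, c, by rw [← hc]; group⟩
  · rintro ⟨a, b, rfl⟩
    exact isConj_of_forall_eq fun χ => h a b χ

end CfsgLib.BrauerInd
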