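import Mathlib
import Cfsg.Agent.CharBasics.Ortho
import Cfsg.Agent.BrauerInd.FSInd

/-!
The Frobenius–Schur count of square roots of the identity.
-/

set_option autoImplicit false
set_option linter.style.haveILetI false

namespace CfsgLib.BrauerInd

open scoped ComplexConjugate

universe u

variable {G : Type u} [Group G] [Fintype G]

/-- The number of square roots of `1` is the indicator-weighted sum of the degrees. -/
theorem sum_ind_mul_degree [Fintype (Cfsg.IrrCharacter G)] :
    ∑ χ : Cfsg.IrrCharacter G, ind (χ : G → ℂ) * (Cfsg.charDegree (χ : G → ℂ) : ℂ) =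
      (Nat.card {x : G // x ^ 2 = 1} : ℂ) := by
  classical
  have hcent : Nat.card (Subgroup.centralizer ({(1 : G)} : Set G)) = Nat.card G := by
    rw [show Subgroup.centralizer ({(1 : G)} : Set G) = ⊤ from eq_top_iff.2 fun x _ => by
      rw [Subgroup.mem_centralizer_singleton_iff]; simp, Subgroup.card_top]
  have hcol : ∀ s : G, ∑ χ : Cfsg.IrrCharacter G,
      (χ : G → ℂ) (s * s) * (Cfsg.charDegree (χ : G → ℂ) : ℂ) =
      if s ^ 2 = 1 then (Nat.card G : ℂ) else 0 := by
    intro s
    have h := CharBasics.sum_col (s * s) (1 : G)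
    simp only [CharBasics.apply_one (CharBasics.isCharacter_of_irr (Subtype.property _)),
      Complex.conj_natCast] at h
    rw [h, pow_two]
    by_cases hs : s * s = 1
    · rw [if_pos (hs ▸ IsConj.refl _), if_pos hs, hs, hcent]
    · rw [if_neg hs, if_neg fun h' => hs (isConj_one_left.mp h')]
  calc ∑ χ : Cfsg.IrrCharacter G, ind (χ : G → ℂ) * (Cfsg.charDegree (χ : G → ℂ) : ℂ)
      = (Nat.card G : ℂ)⁻¹ * ∑ s : G, ∑ χ : Cfsg.IrrCharacter G,
          (χ : G → ℂ) (s * s) * (Cfsg.charDegree (χ : G → ℂ) : ℂ) := by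
        simp only [ind, Finset.mul_sum, Finset.sum_mul, mul_assoc]
        exact Finset.sum_comm
    _ = _ := by
        rw [Finset.sum_congr rfl fun s _ => hcol s, ← Finset.sum_filter, Finset.sum_const,
          nsmul_eq_mul, Nat.card_eq_fintype_card (α := {x : G // x ^ 2 = 1}),
          Fintype.card_subtype, ← mul_assoc, mul_comm _ ((Finset.card _ : ℕ) : ℂ), mul_assoc,
          inv_mul_cancel₀ (Nat.cast_ne_zero.mpr Nat.card_pos.ne'), mul_one]

end CfsgLib.BrauerInd
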