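import Mathlib

/-!
A dimension bound from reduction at a `p`-adic valuation: a vector fixed by a subgroup `H` with zero
relative trace, for a `p`-subgroup acting freely off the base coset, forces `#P + 1` dimensions.
-/

set_option autoImplicit false
set_option linter.style.haveILetI false

namespace CfsgLib.BrauerInd

open scoped Pointwise

/-- There is a valuation on `ℂ` at which `p` is small and the other primes are units. -/
theorem exists_padic_valuation (p : ℕ) (hp : p.Prime) :
    ∃ (B : ValuationSubring ℂ), B.valuation (p : ℂ) < 1 ∧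
      ∀ n : ℕ, ¬ p ∣ n → B.valuation (n : ℂ) = 1 := by
  set A : Subring ℂ := ⊥ with hA
  set I : Ideal A := Ideal.span {(p : A)} with hIdef
  have hI : I ≠ ⊤ := by
    rw [Ideal.ne_top_iff_one, hIdef, Ideal.mem_span_singleton]
    rintro ⟨⟨a, ha⟩, he⟩
    obtain ⟨z, rfl⟩ := Subring.mem_bot.1 ha
    have h := congrArg Subtype.val he
    simp only [OneMemClass.coe_one, Subring.coe_mul] at h
    have h2 : ((1 : ℤ) : ℂ) = (((p : ℤ) * z : ℤ) : ℂ) := by
      push_cast
      simpa using h
    have h3 : (p : ℤ) ∣ 1 := ⟨z, Int.cast_injective h2⟩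
    exact hp.ne_one (Nat.dvd_one.1 (by exact_mod_cast h3))
  obtain ⟨B, -, hB⟩ := Ideal.image_subset_nonunits_valuationSubring I hI
  have hpB : B.valuation (p : ℂ) < 1 :=
    (ValuationSubring.mem_nonunits_iff B).1 (hB ⟨(p : A), Ideal.subset_span rfl, by simp⟩)
  refine ⟨B, hpB, fun n hn => le_antisymm ((B.valuation_le_one_iff _).2 (natCast_mem B n)) ?_⟩
  by_contra hlt
  push Not at hlt
  have hz : ∀ z : ℤ, B.valuation (z : ℂ) ≤ 1 := fun z => (B.valuation_le_one_iff _).2 (intCast_mem B z)
  obtain ⟨a, b, hab⟩ := Nat.isCoprime_iff_coprime.mpr ((hp.coprime_iff_not_dvd).2 hn)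
  have hab' : (a : ℂ) * (p : ℂ) + (b : ℂ) * (n : ℂ) = 1 := by exact_mod_cast hab
  have h1 : B.valuation ((a : ℂ) * (p : ℂ) + (b : ℂ) * (n : ℂ)) < 1 := by
    refine Valuation.map_add_lt _ ?_ ?_ <;> rw [map_mul]
    · exact (mul_le_of_le_one_left' (hz a)).trans_lt hpB
    · exact (mul_le_of_le_one_left' (hz b)).trans_lt hlt
  rw [hab', map_one] at h1
  exact lt_irrefl _ h1

variable {G : Type*} [Group G] [Finite G] {W : Type*} [AddCommGroup W] [Module ℂ W]
  [FiniteDimensional ℂ W]

theorem card_succ_le_finrank (σ : Representation ℂ G W) {p : ℕ} [hp : Fact p.Prime]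
    (H P : Subgroup G) (hPH : P ≤ H) (hP : IsPGroup p P) (hidx : ¬ p ∣ H.index)
    (hfree : ∀ x ∈ P, x ≠ 1 → ∀ q : G ⧸ H, x • q = q → q = ((1 : G) : G ⧸ H))
    (v₀ : W) (hv₀ : v₀ ≠ 0) (hH : ∀ h ∈ H, σ h v₀ = v₀)
    (htr : ∑ᶠ q : G ⧸ H, σ q.out v₀ = 0)
    (w₀ : W) (hw₀ : w₀ ≠ 0) (hG : ∀ g, σ g w₀ = w₀) :
    Nat.card P + 1 ≤ Module.finrank ℂ W := by
  classical
  haveI := Fintype.ofFinite G
  haveI := Fintype.ofFinite P
  haveI := Fintype.ofFinite (G ⧸ H)
  obtain ⟨B, hBp, hBn⟩ := exists_padic_valuation p hp.out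
  set val := B.valuation
  let b := Module.finBasis ℂ W
  let InL : W → Prop := fun w => ∀ g i, val (b.repr (σ g w) i) ≤ 1
  let InM : W → Prop := fun w => ∀ g i, val (b.repr (σ g w) i) < 1
  have hMadd : ∀ u w, InM u → InM w → InM (u + w) := fun u w hu hw g i => by
    rw [map_add, map_add, Finsupp.add_apply]; exact Valuation.map_add_lt _ (hu g i) (hw g i)
  have hMsmul : ∀ (c : ℂ) w, val c ≤ 1 → InM w → InM (c • w) := fun c w hc hw g i => by
    rw [map_smul, map_smul, Finsupp.smul_apply, smul_eq_mul, map_mul]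
    exact (mul_le_of_le_one_left' hc).trans_lt (hw g i)
  have hLsmul : ∀ (c : ℂ) w, val c < 1 → InL w → InM (c • w) := fun c w hc hw g i => by
    rw [map_smul, map_smul, Finsupp.smul_apply, smul_eq_mul, map_mul]
    exact (mul_le_of_le_one_right' (hw g i)).trans_lt hc
  have hMneg : ∀ w, InM w → InM (-w) := fun w hw g i => by
    rw [map_neg, map_neg, Finsupp.neg_apply, Valuation.map_neg]; exact hw g i
  have hM0 : InM 0 := fun g i => by simp
  have hMsum : ∀ {ι : Type _} (s : Finset ι) (f : ι → W), (∀ j ∈ s, InM (f j)) →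
      InM (∑ j ∈ s, f j) := fun s f hf => Finset.sum_induction f InM hMadd hM0 hf
  have hσM : ∀ h w, InM w → InM (σ h w) := fun h w hw g i => by
    rw [← Module.End.mul_apply, ← map_mul]; exact hw _ i
  have hσL : ∀ h w, InL w → InL (σ h w) := fun h w hw g i => by
    rw [← Module.End.mul_apply, ← map_mul]; exact hw _ i
  have hunit : ∀ (c : ℂ) w, InL w → ¬ InM w → InM (c • w) → val c < 1 := by
    intro c w hw hnw hcw
    by_contra hc
    push Not at hc
    have hc0 : c ≠ 0 := fun h => by simp [h] at hc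
    refine hnw ?_
    have := hMsmul c⁻¹ (c • w) (by rw [map_inv₀]; exact inv_le_one_of_one_le₀ hc) hcw
    rwa [smul_smul, inv_mul_cancel₀ hc0, one_smul] at this
  have hscale : ∀ w : W, w ≠ 0 → ∃ c : ℂ, c ≠ 0 ∧ InL (c • w) ∧ ¬ InM (c • w) := by
    intro w hw
    haveI : Nonempty (Fin (Module.finrank ℂ W)) := by
      by_contra h
      rw [not_nonempty_iff] at h
      exact hw (b.repr.injective (Finsupp.ext fun i => isEmptyElim i))
    obtain ⟨⟨g₁, i₁⟩, -, hmax⟩ := Finset.exists_max_image Finset.univ
      (fun gi : G × Fin (Module.finrank ℂ W) => val (b.repr (σ gi.1 w) gi.2)) Finset.univ_nonempty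
    set a := b.repr (σ g₁ w) i₁
    have ha : a ≠ 0 := by
      intro ha
      refine hw (b.repr.injective (Finsupp.ext fun i => ?_))
      have := hmax (1, i) (Finset.mem_univ _)
      simp only [ha, map_one, map_zero, Module.End.one_apply, le_zero_iff, map_eq_zero] at this
      simpa using this
    have hv : val a ≠ 0 := (val.ne_zero_iff).2 ha
    refine ⟨a⁻¹, inv_ne_zero ha, fun g i => ?_, fun h => ?_⟩
    · rw [map_smul, map_smul, Finsupp.smul_apply, smul_eq_mul, map_mul, map_inv₀]
      exact (inv_mul_le_one₀ (zero_lt_iff.2 hv)).2 (hmax (g, i) (Finset.mem_univ _))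
    · have := h g₁ i₁
      rw [map_smul, map_smul, Finsupp.smul_apply, smul_eq_mul, map_mul, map_inv₀,
        inv_mul_cancel₀ hv] at this
      exact lt_irrefl _ this
  obtain ⟨cv, hcv, hvL, hvM⟩ := hscale v₀ hv₀
  obtain ⟨cw, hcw, hwL, hwM⟩ := hscale w₀ hw₀
  set v := cv • v₀ with hvdef
  set w := cw • w₀ with hwdef
  have hwG : ∀ g, σ g w = w := fun g => by rw [hwdef, map_smul, hG]
  have hvH : ∀ h ∈ H, σ h v = v := fun h hh => by rw [hvdef, map_smul, hH h hh]
  -- the coset function
  let f : G ⧸ H → W := fun q => σ q.out v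
  have hf : ∀ (x : G) (q : G ⧸ H), f (x • q) = σ x (f q) := by
    intro x q
    have : (x * q.out)⁻¹ * (x • q).out ∈ H := by
      rw [← QuotientGroup.eq, QuotientGroup.out_eq']
      exact congrArg (x • ·) (QuotientGroup.out_eq' q)
    show σ (x • q).out v = σ x (σ q.out v)
    rw [← Module.End.mul_apply, ← map_mul]
    conv_rhs => rw [← hvH _ this, ← Module.End.mul_apply, ← map_mul, mul_inv_cancel_left]
  have hfsum : ∑ q, f q = 0 := by
    have : ∀ q, f q = cv • σ q.out v₀ := fun q => map_smul _ _ _
    rw [Finset.sum_congr rfl fun q _ => this q, ← Finset.smul_sum, ← finsum_eq_sum_of_fintype, htr,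
      smul_zero]
  set base : G ⧸ H := ((1 : G) : G ⧸ H)
  have hbase : f base = v := by
    have : (base.out) ∈ H := by
      have h := QuotientGroup.out_eq' base
      rw [QuotientGroup.eq] at h
      simpa using h
    exact hvH _ this
  -- representatives of the free orbits
  let rep : G ⧸ H → G ⧸ H := fun q => (Quotient.mk (MulAction.orbitRel P (G ⧸ H)) q).out
  have hrep_inv : ∀ (x : P) q, rep ((x : G) • q) = rep q := fun x q =>
    congrArg Quotient.out (Quotient.sound ⟨x, rfl⟩)
  have hrep_mem : ∀ q, ∃ x : P, (x : G) • rep q = q := fun q => by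
    have h : MulAction.orbitRel P (G ⧸ H) q (rep q) :=
      Quotient.exact (Quotient.out_eq _).symm
    obtain ⟨x, hx⟩ := h
    exact ⟨x, hx⟩
  have hbase_fix : ∀ x : P, (x : G) • base = base := fun x => by
    show ((x * 1 : G) : G ⧸ H) = _
    rw [QuotientGroup.eq]
    simpa using hPH x.2
  let R : Finset (G ⧸ H) := Finset.univ.filter fun q => rep q = q ∧ q ≠ base
  set u : W := ∑ q ∈ R, f q with hudef
  let y : P → W := fun x => σ x u
  have hysum : ∑ x, y x = -v := by
    have h1 : ∑ x, y x = ∑ z ∈ (Finset.univ : Finset P) ×ˢ R, f ((z.1 : G) • z.2) := by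
      rw [Finset.sum_product]
      refine Finset.sum_congr rfl fun x _ => ?_
      show σ x (∑ q ∈ R, f q) = _
      rw [map_sum]
      exact Finset.sum_congr rfl fun q _ => (hf _ _).symm
    have h2 : ∑ z ∈ (Finset.univ : Finset P) ×ˢ R, f ((z.1 : G) • z.2) =
        ∑ q ∈ Finset.univ.erase base, f q := by
      refine Finset.sum_bij (fun z _ => (z.1 : G) • z.2) ?_ ?_ ?_ (fun z _ => rfl)
      · rintro ⟨x, q⟩ hz
        simp only [Finset.mem_product, R, Finset.mem_filter, Finset.mem_univ, true_and] at hz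
        refine Finset.mem_erase.2 ⟨fun he => hz.2 ?_, Finset.mem_univ _⟩
        rw [← hbase_fix x] at he
        exact MulAction.injective (x : G) he
      · rintro ⟨x, q⟩ hz ⟨x', q'⟩ hz' he
        simp only [Finset.mem_product, R, Finset.mem_filter, Finset.mem_univ, true_and] at hz hz'
        have hq : q = q' := by
          rw [← hz.1, ← hz'.1, ← hrep_inv x q, ← hrep_inv x' q']
          exact congrArg rep he
        subst hq
        have hx : ((x' : G)⁻¹ * x) • q = q := by
          rw [mul_smul]
          simp only at he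
          rw [he, inv_smul_smul]
        have : (x' : G)⁻¹ * x = 1 := by
          by_contra hne
          exact hz.2 (hfree _ (P.mul_mem (P.inv_mem x'.2) x.2) hne q hx)
        exact Prod.ext (Subtype.ext (inv_mul_eq_one.1 this).symm) rfl
      · intro q hq
        obtain ⟨x, hx⟩ := hrep_mem q
        refine ⟨(x, rep q), ?_, hx⟩
        simp only [Finset.mem_product, R, Finset.mem_filter, Finset.mem_univ, true_and]
        refine ⟨congrArg Quotient.out (Quotient.out_eq _), fun he => ?_⟩
        rw [he, hbase_fix x] at hx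
        exact (Finset.mem_erase.1 hq).1 hx.symm
    have h3 := Finset.add_sum_erase Finset.univ f (Finset.mem_univ base)
    rw [hfsum, hbase] at h3
    rw [h1, h2]
    exact eq_neg_of_add_eq_zero_right h3
  have huL : InL u := fun g i => by
    rw [hudef, map_sum, map_sum, Finset.sum_apply']
    exact Valuation.map_sum_le _ fun q _ => hσL _ _ hvL g i
  have hyL : ∀ x, InL (y x) := fun x => hσL _ _ huL
  -- the key step
  let S : (P → ℂ) → W := fun c => ∑ x, c x • y x
  have hkey : ∀ c : P → ℂ, (∀ x, val (c x) ≤ 1) → ∀ t : ℂ, val t ≤ 1 →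
      InM (S c + t • w) → ∀ x, val (c x) < 1 := by
    intro c hc t ht hmem x₀
    by_contra hx₀
    -- functions with combinations in the reduced line
    let D : AddSubgroup (P → ℂ) :=
      { carrier := {d | (∀ x, val (d x) ≤ 1) ∧ ∃ s : ℂ, val s ≤ 1 ∧ InM (S d + s • w)}
        zero_mem' := ⟨fun x => by simp, 0, by simp, by simpa [S] using hM0⟩
        add_mem' := by
          rintro d e ⟨hd, s, hs, hds⟩ ⟨he, s', hs', hes⟩
          refine ⟨fun x => Valuation.map_add_le _ (hd x) (he x), s + s', Valuation.map_add_le _ hs hs', ?_⟩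
          have : S (d + e) + (s + s') • w = (S d + s • w) + (S e + s' • w) := by
            simp only [S, Pi.add_apply, add_smul, Finset.sum_add_distrib]; abel
          rw [this]; exact hMadd _ _ hds hes
        neg_mem' := by
          rintro d ⟨hd, s, hs, hds⟩
          refine ⟨fun x => by simp [hd x], -s, by simp [hs], ?_⟩
          have : S (-d) + (-s) • w = -(S d + s • w) := by
            simp only [S, Pi.neg_apply, neg_smul, Finset.sum_neg_distrib]; abel
          rw [this]; exact hMneg _ hds }
    let D₀ : AddSubgroup (P → ℂ) :=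
      { carrier := {d | ∀ x, val (d x) < 1}
        zero_mem' := fun x => by simp
        add_mem' := fun hd he x => Valuation.map_add_lt _ (hd x) (he x)
        neg_mem' := fun hd x => by simp [hd x] }
    let tr : P → (P → ℂ) → (P → ℂ) := fun a d x => d (a⁻¹ * x)
    have htrD : ∀ a d, d ∈ D → tr a d ∈ D := by
      rintro a d ⟨hd, s, hs, hds⟩
      refine ⟨fun x => hd _, s, hs, ?_⟩
      have : S (tr a d) + s • w = σ (a : G) (S d + s • w) := by
        rw [map_add, map_smul, hwG, map_sum]
        congr 1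
        refine (Fintype.sum_equiv (Equiv.mulLeft a) _ _ fun x => ?_).symm
        show _ = d (a⁻¹ * (a * x)) • y (a * x)
        rw [inv_mul_cancel_left, map_smul]
        show _ = d x • σ ((a * x : P) : G) u
        rw [Subgroup.coe_mul, map_mul, Module.End.mul_apply]
      rw [this]; exact hσM _ _ hds
    have hcD : c ∈ D := ⟨hc, t, ht, hmem⟩
    haveI : NeZero p := ⟨hp.out.ne_zero⟩
    let T : (P → ZMod p) → (P → ℂ) := fun m => ∑ a, (m a).val • tr a c
    have hTD : ∀ m, T m ∈ D := fun m => D.sum_mem fun a _ => D.nsmul_mem (htrD a c hcD) _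
    have hpD : ∀ (a : P), (p : ℕ) • tr a c ∈ D₀ := fun a x => by
      show val ((p • tr a c) x) < 1
      rw [Pi.smul_apply, nsmul_eq_mul, map_mul]
      exact (mul_le_of_le_one_right' (hc _)).trans_lt hBp
    have hTadd : ∀ m m', T (m + m') - (T m + T m') ∈ D₀ := by
      intro m m'
      simp only [T, ← Finset.sum_add_distrib, ← Finset.sum_sub_distrib]
      refine D₀.sum_mem fun a _ => ?_
      rw [← add_smul, Pi.add_apply, ZMod.val_add]
      set k := (m a).val + (m' a).val
      have h : k • tr a c = (k % p) • tr a c + (k / p) • ((p : ℕ) • tr a c) := by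
        rw [← mul_smul, ← add_smul, mul_comm (k / p) p, Nat.mod_add_div]
      rw [h, sub_add_cancel_left]
      exact D₀.neg_mem (D₀.nsmul_mem (hpD a) _)
    let π := QuotientAddGroup.mk' D₀
    let Tb : (P → ZMod p) →+ (P → ℂ) ⧸ D₀ :=
      AddMonoidHom.mk' (fun m => π (T m)) fun m m' => by
        rw [← map_add, ← sub_eq_zero, ← map_sub]
        exact (QuotientAddGroup.eq_zero_iff _).2 (hTadd m m')
    let Q := Tb.range
    -- translation on the quotient
    let trh : P → ((P → ℂ) →+ (P → ℂ)) := fun a =>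
      AddMonoidHom.mk' (tr a) fun d e => rfl
    let trq : P → ((P → ℂ) ⧸ D₀ →+ (P → ℂ) ⧸ D₀) := fun a =>
      QuotientAddGroup.map D₀ D₀ (trh a) (fun d hd x => hd _)
    have htrT : ∀ a m, tr a (T m) = T (fun x => m (a⁻¹ * x)) := by
      intro a m
      funext x
      simp only [T, tr, Finset.sum_apply, Pi.smul_apply]
      refine Fintype.sum_equiv (Equiv.mulLeft a) _ _ fun a' => ?_
      rw [Equiv.coe_mulLeft, inv_mul_cancel_left, mul_inv_rev, mul_assoc]
    have htrQ : ∀ a, ∀ z ∈ Q, trq a z ∈ Q := by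
      rintro a _ ⟨m, rfl⟩
      exact ⟨fun x => m (a⁻¹ * x), by show π _ = π (tr a (T m)); rw [htrT]⟩
    letI : MulAction P Q :=
      { smul := fun a z => ⟨trq a z, htrQ a _ z.2⟩
        one_smul := fun z => Subtype.ext (by
          show trq 1 (z : (P → ℂ) ⧸ D₀) = z
          induction (z : (P → ℂ) ⧸ D₀) using QuotientAddGroup.induction_on with
          | H d => show π (tr 1 d) = π d; simp [tr])
        mul_smul := fun a a' z => Subtype.ext (by
          show trq (a * a') (z : (P → ℂ) ⧸ D₀) = trq a (trq a' z)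
          induction (z : (P → ℂ) ⧸ D₀) using QuotientAddGroup.induction_on with
          | H d => show π (tr (a * a') d) = π (tr a (tr a' d)); simp [tr, mul_assoc]) }
    haveI : Finite Q := (Set.finite_range Tb).to_subtype
    have hz₁ : Tb (Pi.single 1 1) ≠ 0 := by
      intro h0
      have h1 : T (Pi.single 1 1) ∈ D₀ := (QuotientAddGroup.eq_zero_iff _).1 h0
      have hT1 : T (Pi.single 1 1) = c := by
        haveI : Fact (1 < p) := ⟨hp.out.one_lt⟩
        show ∑ a, ((Pi.single 1 1 : P → ZMod p) a).val • tr a c = c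
        rw [Finset.sum_eq_single (1 : P) (fun a _ ha => by simp [ha]) (by simp)]
        simp [ZMod.val_one, tr]
      exact hx₀ (hT1 ▸ h1 x₀)
    haveI : Nontrivial Q := ⟨⟨⟨_, Pi.single 1 1, rfl⟩, 0, fun h => hz₁ (congrArg Subtype.val h)⟩⟩
    have hQp : p ∣ Nat.card Q := by
      have h1 : Nat.card Q ∣ p ^ Fintype.card P := by
        have := AddSubgroup.card_range_dvd Tb
        rwa [Nat.card_fun, Nat.card_zmod, Nat.card_eq_fintype_card (α := P)] at this
      obtain ⟨i, -, hi⟩ := (Nat.dvd_prime_pow hp.out).1 h1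
      rw [hi]
      refine dvd_pow_self p fun h0 => ?_
      rw [h0, pow_zero] at hi
      have := Finite.one_lt_card (α := Q)
      omega
    obtain ⟨z, hz, hz0⟩ := hP.exists_fixed_point_of_prime_dvd_card_of_fixed_point Q hQp
      (a := (0 : Q)) (fun a => Subtype.ext (map_zero (trq a)))
    obtain ⟨m, hm⟩ := z.2
    obtain ⟨hd, s, hs, hds⟩ := hTD m
    set d := T m with hddef
    have hconst : ∀ x, val (d x - d 1) < 1 := by
      intro x
      have h1 : π (tr x⁻¹ d) = π d := by
        have h2 := congrArg Subtype.val (hz x⁻¹)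
        change trq x⁻¹ (z : (P → ℂ) ⧸ D₀) = z at h2
        rw [← hm] at h2
        exact h2
      have h3 : tr x⁻¹ d - d ∈ D₀ := by
        rw [← QuotientAddGroup.eq_zero_iff]
        show π _ = 0
        rw [map_sub, h1, sub_self]
      simpa [tr] using h3 1
    have he1 : ¬ val (d 1) < 1 := by
      intro he
      refine hz0 (Subtype.ext ?_)
      show (0 : (P → ℂ) ⧸ D₀) = z
      rw [← hm]
      refine ((QuotientAddGroup.eq_zero_iff _).2 fun x => ?_).symm
      have := Valuation.map_add_lt _ (hconst x) he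
      simpa using this
    have he0 : d 1 ≠ 0 := fun h => by rw [h, map_zero] at he1; exact he1 zero_lt_one
    have hval1 : val (d 1) = 1 := le_antisymm (hd 1) (not_lt.1 he1)
    -- `v` is congruent to a multiple of `w`
    have h4 : InM (-(d 1 • v) + s • w) := by
      have e : -(d 1 • v) + s • w = (S d + s • w) + -∑ x, (d x - d 1) • y x := by
        simp only [S, sub_smul, Finset.sum_sub_distrib, ← Finset.smul_sum, hysum, smul_neg]
        abel
      rw [e]
      exact hMadd _ _ hds (hMneg _ (hMsum _ _ fun x _ => hLsmul _ _ (hconst x) (hyL x)))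
    have h5 : InM ((H.index : ℂ) • (s • w)) := by
      have hsum : ∑ q : G ⧸ H, σ q.out (-(d 1 • v) + s • w) = (H.index : ℂ) • (s • w) := by
        simp only [map_add, map_neg, map_smul, hwG, Finset.sum_add_distrib, Finset.sum_neg_distrib,
          ← Finset.smul_sum]
        rw [show ∑ q : G ⧸ H, σ q.out v = 0 from hfsum, smul_zero, neg_zero, zero_add, Finset.sum_const,
          Finset.card_univ, Subgroup.index_eq_card, Nat.card_eq_fintype_card, Nat.cast_smul_eq_nsmul,
          smul_comm]
      rw [← hsum]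
      exact hMsum _ _ fun q _ => hσM _ _ h4
    rw [smul_smul] at h5
    have h6 : val s < 1 := by
      have := hunit _ _ hwL hwM h5
      rwa [map_mul, hBn _ hidx, one_mul] at this
    have h7 : InM (d 1 • v) := by
      have := hMadd _ _ (hMneg _ h4) (hLsmul s w h6 hwL)
      simpa using this
    exact absurd (hunit _ _ hvL hvM h7) he1
  -- independence
  let fam : Option P → W := fun o => o.elim w y
  have hli : LinearIndependent ℂ fam := by
    rw [Fintype.linearIndependent_iff]
    intro g hg
    by_contra hne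
    push Not at hne
    obtain ⟨o₁, ho₁⟩ := hne
    obtain ⟨o₀, -, hmax⟩ := Finset.exists_max_image Finset.univ (fun o => val (g o)) Finset.univ_nonempty
    have ha : g o₀ ≠ 0 := fun h => ho₁ (by
      have := hmax o₁ (Finset.mem_univ _)
      simpa [h] using this)
    set a := g o₀
    have hle : ∀ o, val (a⁻¹ * g o) ≤ 1 := fun o => by
      rw [map_mul, map_inv₀]
      exact (inv_mul_le_one₀ (zero_lt_iff.2 ((val.ne_zero_iff).2 ha))).2 (hmax o (Finset.mem_univ _))
    let c : P → ℂ := fun x => a⁻¹ * g (some x)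
    have hsum : S c + (a⁻¹ * g none) • w = 0 := by
      have := congrArg (a⁻¹ • ·) hg
      simp only [smul_zero, smul_add, Finset.smul_sum, smul_smul, Fintype.sum_option] at this
      rw [← this, add_comm]
      rfl
    have hc := hkey c (fun x => hle _) _ (hle none) (hsum ▸ hM0)
    have ht : val (a⁻¹ * g none) < 1 := by
      refine hunit _ _ hwL hwM ?_
      rw [eq_neg_of_add_eq_zero_right hsum]
      exact hMneg _ (hMsum _ _ fun x _ => hLsmul _ _ (hc x) (hyL x))
    have hall : ∀ o, val (a⁻¹ * g o) < 1 := Option.rec ht hc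
    have := hall o₀
    rw [inv_mul_cancel₀ ha, map_one] at this
    exact lt_irrefl _ this
  have := hli.fintype_card_le_finrank
  rw [Fintype.card_option, ← Nat.card_eq_fintype_card] at this
  exact this

end CfsgLib.BrauerInd
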